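import Cfsg.Agent.Linear.Unipotent.Bruhat
import Mathlib.GroupTheory.Sylow
import Mathlib.GroupTheory.Nilpotent
import Mathlib.Algebra.CharP.Lemmas
import Mathlib.LinearAlgebra.Matrix.Charpoly.Coeff

/-! Two Sylow 2-subgroups of the automorphism group of `L_n(2)` meet non-trivially. -/

set_option autoImplicit false

namespace Cfsg.Agent.KnownB.SylowMeet

open scoped Pointwise
open Cfsg Cfsg.Agent.Linear.Unipotent

/-- A group with a normal subgroup of index two whose Sylow subgroups are self-normalising, those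
avoiding a given one forming a single orbit. -/
theorem meet_of_orbit {G : Type*} [Group G] [Finite G] (N : Subgroup G) [N.Normal]
    (hidx : N.index = 2) (hself : ∀ S : Sylow 2 N, Subgroup.normalizer ((S : Subgroup N) : Set N) = S)
    (horb : ∀ S T T' : Sylow 2 N, (S : Subgroup N) ⊓ T = ⊥ → (S : Subgroup N) ⊓ T' = ⊥ →
      ∃ u ∈ (S : Subgroup N), MulAut.conj u • (T : Subgroup N) = T')
    (H : Sylow 2 G) (x : G) :
    (H : Subgroup G) ⊓ MulAut.conj x • (H : Subgroup G) ≠ ⊥ := by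
  intro hbot
  have hsyl : ∀ K : Sylow 2 G, ∃ S : Sylow 2 N, ∀ n : N, n ∈ S ↔ (n : G) ∈ K := fun K => by
    refine ⟨IsPGroup.toSylow (P := (K : Subgroup G).subgroupOf N)
      (K.isPGroup'.comap_of_injective N.subtype Subtype.coe_injective) ?_, fun n => ?_⟩
    · intro h
      set P := (K : Subgroup G) ⊓ N
      have e1 : P.relIndex N * 2 = P.index := by
        rw [← hidx]; exact Subgroup.relIndex_mul_index inf_le_right
      have e2 : P.relIndex (K : Subgroup G) * (K : Subgroup G).index = P.index :=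
        Subgroup.relIndex_mul_index inf_le_left
      have e3 : P.relIndex (K : Subgroup G) ∣ 2 := by
        rw [Subgroup.inf_relIndex_left]
        exact (Subgroup.relIndex_dvd_index_of_normal N _).trans hidx.dvd
      have h' : 2 ∣ P.relIndex N := by
        rw [Subgroup.inf_relIndex_right]; exact h
      obtain ⟨l, hl⟩ := h'
      have hodd := K.not_dvd_index
      rcases (Nat.dvd_prime Nat.prime_two).mp e3 with e | e <;> rw [e] at e2
      · exact hodd ⟨2 * l, by rw [← e1, hl] at e2; linarith⟩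
      · exact hodd ⟨l, by rw [← e1, hl] at e2; linarith⟩
    · exact Iff.rfl
  set H' : Sylow 2 G := x • H with hH'
  have hH'mem : ∀ g, g ∈ H' ↔ g ∈ MulAut.conj x • (H : Subgroup G) := fun g => Iff.rfl
  obtain ⟨S, hS⟩ := hsyl H
  obtain ⟨T, hT⟩ := hsyl H'
  have hST : (S : Subgroup N) ⊓ T = ⊥ := by
    refine eq_bot_iff.mpr fun n hn => ?_
    have : (n : G) ∈ (H : Subgroup G) ⊓ MulAut.conj x • (H : Subgroup G) :=
      ⟨(hS n).mp hn.1, (hH'mem _).mp ((hT n).mp hn.2)⟩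
    rw [hbot, Subgroup.mem_bot] at this
    exact Subgroup.mem_bot.mpr (Subtype.ext this)
  -- an element of `H` outside `N`
  obtain ⟨h, hh, hhN⟩ : ∃ h, h ∈ (H : Subgroup G) ∧ h ∉ N := by
    by_contra hall
    push Not at hall
    exact H.not_dvd_index ((hidx ▸ dvd_refl N.index : 2 ∣ N.index).trans
      (Subgroup.index_dvd_of_le fun g hg => hall g hg))
  set φ : N ≃* N := MulAut.conjNormal h with hφ
  have hφS : ∀ n : N, n ∈ S ↔ φ n ∈ S := fun n => by
    rw [hS, hS, hφ, MulAut.conjNormal_apply]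
    constructor
    · exact fun hn => mul_mem (mul_mem hh hn) (inv_mem hh)
    · intro hn
      have := mul_mem (mul_mem (inv_mem hh) hn) hh
      rwa [← mul_assoc, ← mul_assoc, inv_mul_cancel, one_mul, inv_mul_cancel_right] at this
  set T' : Sylow 2 N := T.comapOfInjective φ.symm.toMonoidHom φ.symm.injective
    (by rw [MonoidHom.range_eq_top.mpr φ.symm.surjective]; exact le_top) with hT'
  have hT'mem : ∀ n, n ∈ T' ↔ φ.symm n ∈ T := fun n => Iff.rfl
  have hST' : (S : Subgroup N) ⊓ T' = ⊥ := by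
    refine eq_bot_iff.mpr fun n hn => ?_
    obtain ⟨h1, h2⟩ := hn
    have : φ.symm n ∈ (S : Subgroup N) ⊓ T :=
      ⟨(hφS _).mpr (by rwa [φ.apply_symm_apply]), (hT'mem n).mp h2⟩
    rw [hST, Subgroup.mem_bot] at this
    exact Subgroup.mem_bot.mpr (by simpa using congrArg φ this)
  obtain ⟨u, hu, huT⟩ := horb S T T' hST hST'
  set k : G := (u : G)⁻¹ * h with hk
  have hkH : k ∈ (H : Subgroup G) := mul_mem (inv_mem ((hS u).mp hu)) hh
  have hkN : k ∉ N := fun hk' => hhN (by simpa [hk] using mul_mem u.2 hk')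
  -- `k` normalises `T`
  have hkT : ∀ n : N, n ∈ T ↔ MulAut.conjNormal k n ∈ T := fun n => by
    have e : φ n ∈ T' ↔ n ∈ T := by rw [hT'mem, φ.symm_apply_apply]
    rw [← e]
    show φ n ∈ (T' : Subgroup N) ↔ _
    rw [← huT, Subgroup.mem_pointwise_smul_iff_inv_smul_mem]
    refine iff_of_eq (congrArg (· ∈ (T : Subgroup N)) (Subtype.ext ?_))
    simp [hk, hφ, mul_assoc]
  -- the normaliser of `T` in `G` is `H'`
  let NT : Subgroup G :=
    { carrier := {g | ∀ n : N, n ∈ T ↔ MulAut.conjNormal g n ∈ T}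
      one_mem' := fun n => by simp
      mul_mem' := fun {a b} ha hb n => by
        rw [hb, ha, map_mul, MulAut.mul_apply]
      inv_mem' := fun {a} ha n => by
        rw [ha (MulAut.conjNormal a⁻¹ n), ← MulAut.mul_apply, ← map_mul, mul_inv_cancel, map_one,
          MulAut.one_apply] }
  have hH'NT : (H' : Subgroup G) ≤ NT := fun g hg n => by
    rw [hT, hT, MulAut.conjNormal_apply]
    constructor
    · exact fun hn => mul_mem (mul_mem hg hn) (inv_mem hg)
    · intro hn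
      have := mul_mem (mul_mem (inv_mem hg) hn) hg
      rwa [← mul_assoc, ← mul_assoc, inv_mul_cancel, one_mul, inv_mul_cancel_right] at this
  have hNTN : NT.subgroupOf N = T := by
    rw [← hself T]
    ext m
    rw [Subgroup.mem_subgroupOf, Subgroup.mem_normalizer_iff]
    refine forall_congr' fun n => iff_of_eq ?_
    congr 2
  -- an element of `H'` outside `N`
  obtain ⟨h', hh', hh'N⟩ : ∃ h, h ∈ (H' : Subgroup G) ∧ h ∉ N := by
    by_contra hall
    push Not at hall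
    exact H'.not_dvd_index ((hidx ▸ dvd_refl N.index : 2 ∣ N.index).trans
      (Subgroup.index_dvd_of_le fun g hg => hall g hg))
  have hkH' : k ∈ (H' : Subgroup G) := by
    have hkh : k * h'⁻¹ ∈ N := by
      rw [Subgroup.mul_mem_iff_of_index_two hidx]
      exact iff_of_false hkN fun h => hh'N (by simpa using inv_mem h)
    have : (⟨_, hkh⟩ : N) ∈ NT.subgroupOf N :=
      mul_mem (show k ∈ NT from hkT) (inv_mem (hH'NT hh'))
    rw [hNTN] at this
    have := mul_mem ((hT _).mp this) hh'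
    rwa [inv_mul_cancel_right] at this
  have hk1 : k ∈ (H : Subgroup G) ⊓ MulAut.conj x • (H : Subgroup G) := ⟨hkH, (hH'mem k).mp hkH'⟩
  rw [hbot, Subgroup.mem_bot] at hk1
  exact hkN (hk1 ▸ one_mem N)

variable {n : ℕ}

local notation "𝔽₂" => ZMod 2
local notation "U₂" => upperTriangularGL n 𝔽₂
local notation "Mn" => Matrix (Fin n) (Fin n) 𝔽₂

theorem diag_one {g : GL (Fin n) 𝔽₂} (hg : g ∈ U₂) (i : Fin n) : (g : Mn) i i = 1 := by
  have hdet : (g : Mn).det ≠ 0 := ((Matrix.isUnit_iff_isUnit_det _).1 g.isUnit).ne_zero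
  rw [upper_det (A := (g : Mn)) hg, Finset.prod_ne_zero_iff] at hdet
  have h2 : ∀ a : 𝔽₂, a ≠ 0 → a = 1 := by decide
  exact h2 _ (hdet i (Finset.mem_univ i))

theorem isPGroup_upper : IsPGroup 2 (U₂ : Subgroup (GL (Fin n) 𝔽₂)) := by
  intro g
  refine ⟨n, Subtype.ext (Units.ext ?_)⟩
  rcases Nat.eq_zero_or_pos n with rfl | hn
  · exact Subsingleton.elim _ _
  haveI : Nonempty (Fin n) := ⟨⟨0, hn⟩⟩
  have hch := Matrix.aeval_self_charpoly ((g : GL (Fin n) 𝔽₂) : Mn)
  rw [Matrix.charpoly_of_isUpperTriangular _ g.2, Finset.prod_congr rfl fun i _ => by rw [diag_one g.2 i],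
    Finset.prod_const, Finset.card_univ, Fintype.card_fin, map_pow, map_sub, Polynomial.aeval_X,
    Polynomial.aeval_C, map_one] at hch
  show (((g : GL (Fin n) 𝔽₂) ^ 2 ^ n : GL (Fin n) 𝔽₂) : Mn) = 1
  rw [Units.val_pow_eq_pow_val]
  have h2n : n ≤ 2 ^ n := Nat.lt_two_pow_self.le
  have h0 : (((g : GL (Fin n) 𝔽₂) : Mn) - 1) ^ 2 ^ n = 0 := pow_eq_zero_of_le h2n hch
  rwa [sub_pow_char_pow_of_commute _ _ (Commute.one_right _), one_pow, sub_eq_zero] at h0

theorem permMat_conj (σ : Equiv.Perm (Fin n)) (i j : Fin n) :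
    permMat 𝔽₂ σ * (1 + Matrix.single i j 1) = (1 + Matrix.single (σ i) (σ j) 1) * permMat 𝔽₂ σ := by
  rw [Matrix.mul_add, Matrix.add_mul, Matrix.mul_one, Matrix.one_mul]
  congr 1
  ext a b
  rw [Matrix.mul_apply, Matrix.mul_apply, Finset.sum_eq_single i, Finset.sum_eq_single (σ j)]
  · simp only [permMat, Matrix.single_apply]
    by_cases h1 : a = σ i <;> by_cases h2 : b = j <;> simp_all [eq_comm]
  · intro c _ hc
    simp [Matrix.single_apply, Ne.symm hc]
  · simp
  · intro c _ hc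
    simp [Matrix.single_apply, Ne.symm hc]
  · simp

/-- The elementary element of an ordered pair. -/
def elem {i j : Fin n} (h : i ≠ j) : GL (Fin n) 𝔽₂ where
  val := 1 + Matrix.single i j 1
  inv := 1 + Matrix.single i j 1
  val_inv := by
    rw [Matrix.mul_add, Matrix.add_mul, Matrix.add_mul, Matrix.single_mul_single_of_ne _ _ _ _ h.symm]
    simp only [Matrix.one_mul, Matrix.mul_one, add_zero]
    rw [add_assoc, ← Matrix.single_add, show (1 + 1 : 𝔽₂) = 0 by decide, Matrix.single_zero,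
      add_zero]
  inv_val := by
    rw [Matrix.mul_add, Matrix.add_mul, Matrix.add_mul, Matrix.single_mul_single_of_ne _ _ _ _ h.symm]
    simp only [Matrix.one_mul, Matrix.mul_one, add_zero]
    rw [add_assoc, ← Matrix.single_add, show (1 + 1 : 𝔽₂) = 0 by decide, Matrix.single_zero,
      add_zero]

theorem elem_mem_iff {i j : Fin n} (h : i ≠ j) : elem h ∈ U₂ ↔ i < j := by
  constructor
  · intro hm
    by_contra hij
    have := hm (show id j < id i from lt_of_le_of_ne (not_lt.mp hij) h.symm)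
    simp [elem, h] at this
  · intro hij a b hab
    show (1 + Matrix.single i j 1 : Mn) a b = 0
    have : a ≠ b := (ne_of_lt hab).symm
    rw [Matrix.add_apply, Matrix.one_apply_ne this, Matrix.single_apply, if_neg, add_zero]
    rintro ⟨rfl, rfl⟩
    exact lt_asymm hij hab

theorem permGL_conj_elem (σ : Equiv.Perm (Fin n)) {i j : Fin n} (h : i ≠ j) :
    permGL 𝔽₂ σ * elem h * (permGL 𝔽₂ σ)⁻¹ = elem (σ.injective.ne h) := by
  rw [mul_inv_eq_iff_eq_mul]
  exact Units.ext (permMat_conj σ i j)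

theorem normalizer_upper : Subgroup.normalizer ((U₂ : Subgroup (GL (Fin n) 𝔽₂)) : Set _) = U₂ := by
  refine le_antisymm (fun g hg => ?_) Subgroup.le_normalizer
  obtain ⟨b, hb, b', hb', σ, rfl⟩ := exists_bruhat_gl g
  have hσ : permGL 𝔽₂ σ ∈ Subgroup.normalizer ((U₂ : Subgroup (GL (Fin n) 𝔽₂)) : Set _) := by
    have := mul_mem (mul_mem (inv_mem (Subgroup.le_normalizer hb)) hg)
      (inv_mem (Subgroup.le_normalizer hb'))
    simpa [mul_assoc] using this
  have hmono : StrictMono σ := fun i j hij => by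
    have := (Subgroup.mem_normalizer_iff.mp hσ (elem hij.ne)).mp ((elem_mem_iff _).mpr hij)
    rw [permGL_conj_elem, elem_mem_iff] at this
    exact this
  have : σ = 1 := Equiv.ext fun i => congrFun
    ((hmono.range_inj strictMono_id).mp (by simp [σ.surjective.range_eq])) i
  subst this
  have : permGL 𝔽₂ (1 : Equiv.Perm (Fin n)) = 1 := Units.ext permMat_one
  rw [this, mul_one]
  exact mul_mem hb hb'

theorem trivial_meet {g : GL (Fin n) 𝔽₂}
    (hg : (U₂ : Subgroup (GL (Fin n) 𝔽₂)) ⊓ MulAut.conj g • (U₂ : Subgroup (GL (Fin n) 𝔽₂)) = ⊥) :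
    ∃ b ∈ U₂, ∃ b' ∈ U₂, g = b * permGL 𝔽₂ Fin.revPerm * b' := by
  obtain ⟨b, hb, b', hb', σ, rfl⟩ := exists_bruhat_gl g
  refine ⟨b, hb, b', hb', ?_⟩
  have hanti : StrictMono (⇑Fin.revPerm ∘ ⇑σ) := fun i j hij => by
    refine Fin.rev_lt_rev.mpr ((lt_or_gt_of_ne (σ.injective.ne hij.ne)).resolve_left fun hlt => ?_)
    have hmem : b * elem (σ.injective.ne hij.ne) * b⁻¹ ∈
        (U₂ : Subgroup (GL (Fin n) 𝔽₂)) ⊓
          MulAut.conj (b * permGL 𝔽₂ σ * b') • (U₂ : Subgroup (GL (Fin n) 𝔽₂)) := by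
      refine Subgroup.mem_inf.mpr ⟨mul_mem (mul_mem hb ((elem_mem_iff _).mpr hlt)) (inv_mem hb), ?_⟩
      rw [Subgroup.mem_pointwise_smul_iff_inv_smul_mem, MulAut.smul_def,
        ← map_inv, MulAut.conj_apply, ← permGL_conj_elem σ hij.ne]
      have := mul_mem (mul_mem (inv_mem hb') ((elem_mem_iff hij.ne).mpr hij)) hb'
      simpa [mul_assoc] using this
    rw [hg, Subgroup.mem_bot, mul_inv_eq_one, mul_eq_left] at hmem
    have e := congrFun (congrFun (congrArg (fun z : GL (Fin n) 𝔽₂ => (z : Mn)) hmem) (σ i)) (σ j)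
    simp [elem, σ.injective.ne hij.ne] at e
  have hid : ⇑Fin.revPerm ∘ ⇑σ = id := (hanti.range_inj strictMono_id).mp (by
    rw [Set.range_comp, σ.surjective.range_eq, Set.image_univ, Fin.revPerm.surjective.range_eq,
      Set.range_id])
  have : σ = Fin.revPerm := Equiv.ext fun i => by
    have := congrFun hid i
    simp only [Function.comp_apply, id_eq, Fin.revPerm_apply] at this ⊢
    exact (Fin.rev_eq_iff).mp this
  rw [this]

theorem exists_sylow_upper :
    ∃ S : Sylow 2 (GL (Fin n) 𝔽₂), (S : Subgroup (GL (Fin n) 𝔽₂)) = U₂ := by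
  obtain ⟨S, hS⟩ := (isPGroup_upper (n := n)).exists_le_sylow
  refine ⟨S, le_antisymm ?_ hS⟩
  by_contra hne
  have hlt : (U₂ : Subgroup (GL (Fin n) 𝔽₂)) < S := lt_of_le_not_ge hS hne
  haveI := S.isPGroup'.isNilpotent
  have hnc := normalizerCondition_of_isNilpotent (G := ↥(S : Subgroup (GL (Fin n) 𝔽₂)))
    ((U₂).subgroupOf S) (lt_top_iff_ne_top.mpr fun h => hne (Subgroup.subgroupOf_eq_top.mp h))
  obtain ⟨s, hs, hs'⟩ := SetLike.exists_of_lt hnc
  refine hs' (Subgroup.mem_subgroupOf.mpr ?_)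
  rw [← normalizer_upper (n := n), Subgroup.mem_normalizer_iff]
  intro g
  rw [Subgroup.mem_normalizer_iff] at hs
  constructor
  · intro hg
    exact Subgroup.mem_subgroupOf.mp
      ((hs ⟨g, hS hg⟩).mp (Subgroup.mem_subgroupOf.mpr hg))
  · intro hg
    have hgS : g ∈ (S : Subgroup (GL (Fin n) 𝔽₂)) := by
      have := mul_mem (mul_mem (inv_mem s.2) (hS hg)) s.2
      simpa [mul_assoc] using this
    exact Subgroup.mem_subgroupOf.mp ((hs ⟨g, hgS⟩).mpr (Subgroup.mem_subgroupOf.mpr hg))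

theorem orbit_gl (S T T' : Sylow 2 (GL (Fin n) 𝔽₂)) (hT : (S : Subgroup (GL (Fin n) 𝔽₂)) ⊓ (T : Subgroup (GL (Fin n) 𝔽₂)) = ⊥)
    (hT' : (S : Subgroup (GL (Fin n) 𝔽₂)) ⊓ (T' : Subgroup (GL (Fin n) 𝔽₂)) = ⊥) :
    ∃ u ∈ (S : Subgroup (GL (Fin n) 𝔽₂)), MulAut.conj u • (T : Subgroup (GL (Fin n) 𝔽₂)) = (T' : Subgroup (GL (Fin n) 𝔽₂)) := by
  obtain ⟨S₀, hS₀⟩ := exists_sylow_upper (n := n)
  obtain ⟨a, rfl⟩ := MulAction.exists_smul_eq (GL (Fin n) 𝔽₂) S₀ S
  have key : ∀ R : Sylow 2 (GL (Fin n) 𝔽₂), ((a • S₀ : Sylow 2 (GL (Fin n) 𝔽₂)) :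
      Subgroup (GL (Fin n) 𝔽₂)) ⊓ (R : Subgroup (GL (Fin n) 𝔽₂)) = ⊥ →
      ∃ b ∈ U₂, (R : Subgroup (GL (Fin n) 𝔽₂)) =
        MulAut.conj (a * b * permGL 𝔽₂ Fin.revPerm) • (U₂ : Subgroup (GL (Fin n) 𝔽₂)) := by
    intro R hR
    obtain ⟨c, rfl⟩ := MulAction.exists_smul_eq (GL (Fin n) 𝔽₂) S₀ R
    rw [Sylow.coe_subgroup_smul, Sylow.coe_subgroup_smul, hS₀] at hR
    obtain ⟨b, hb, b', hb', e⟩ := trivial_meet (n := n) (g := a⁻¹ * c) (by
      have := congrArg (MulAut.conj a⁻¹ • ·) hR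
      simpa [Subgroup.smul_inf, ← mul_smul, map_mul, map_inv] using this)
    refine ⟨b, hb, ?_⟩
    have ec : c = a * b * permGL 𝔽₂ Fin.revPerm * b' := by
      rw [mul_assoc a, mul_assoc a, ← e, mul_inv_cancel_left]
    rw [Sylow.coe_subgroup_smul, hS₀, ec, map_mul (MulAut.conj) _ b', mul_smul,
      Subgroup.conj_smul_eq_self_of_mem hb']
  obtain ⟨b, hb, hbT⟩ := key T hT
  obtain ⟨b₂, hb₂, hbT'⟩ := key T' hT'
  refine ⟨a * (b₂ * b⁻¹) * a⁻¹, ?_, ?_⟩
  · show _ ∈ (((a • S₀ : Sylow 2 _)) : Subgroup (GL (Fin n) 𝔽₂))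
    rw [Sylow.coe_subgroup_smul, hS₀, Subgroup.mem_pointwise_smul_iff_inv_smul_mem, MulAut.smul_def,
      ← map_inv, MulAut.conj_apply]
    simpa [mul_assoc] using mul_mem hb₂ (inv_mem hb)
  · rw [hbT, hbT', ← mul_smul, ← map_mul]
    congr 2
    group

theorem self_gl (S : Sylow 2 (GL (Fin n) 𝔽₂)) :
    Subgroup.normalizer ((S : Subgroup (GL (Fin n) 𝔽₂)) : Set (GL (Fin n) 𝔽₂)) =
      (S : Subgroup (GL (Fin n) 𝔽₂)) := by
  obtain ⟨S₀, hS₀⟩ := exists_sylow_upper (n := n)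
  obtain ⟨a, rfl⟩ := MulAction.exists_smul_eq (GL (Fin n) 𝔽₂) S₀ S
  refine le_antisymm (fun g hg => ?_) Subgroup.le_normalizer
  rw [Sylow.coe_subgroup_smul, hS₀] at hg ⊢
  rw [Subgroup.mem_pointwise_smul_iff_inv_smul_mem, MulAut.smul_def, ← map_inv, MulAut.conj_apply]
  rw [← normalizer_upper (n := n), Subgroup.mem_normalizer_iff]
  intro m
  have h := Subgroup.mem_normalizer_iff.mp hg (a * m * a⁻¹)
  simpa [Subgroup.mem_pointwise_smul_iff_inv_smul_mem, ← map_inv, mul_assoc] using h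

/-- The statement for `SL_n(2).2`. -/
theorem meet_linear {G : Type*} [Group G] [Finite G] (N : Subgroup G) [N.Normal]
    (e : N ≃* Matrix.SpecialLinearGroup (Fin n) (ZMod 2)) (hidx : N.index = 2)
    (H : Sylow 2 G) (x : G) :
    (H : Subgroup G) ⊓ MulAut.conj x • (H : Subgroup G) ≠ ⊥ := by
  have hbij : Function.Bijective (Matrix.SpecialLinearGroup.toGL :
      Matrix.SpecialLinearGroup (Fin n) 𝔽₂ →* GL (Fin n) 𝔽₂) := by
    refine ⟨fun a b h => Subtype.ext (congrArg (fun z : GL (Fin n) 𝔽₂ => (z : Mn)) h), fun g => ?_⟩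
    have h2 : ∀ a : 𝔽₂, a ≠ 0 → a = 1 := by decide
    exact ⟨⟨g, h2 _ ((Matrix.isUnit_iff_isUnit_det _).1 g.isUnit).ne_zero⟩, Units.ext rfl⟩
  set f : N ≃* GL (Fin n) 𝔽₂ := e.trans (MulEquiv.ofBijective _ hbij)
  let push : Sylow 2 N → Sylow 2 (GL (Fin n) 𝔽₂) := fun S =>
    S.comapOfInjective f.symm.toMonoidHom f.symm.injective
      (by rw [MonoidHom.range_eq_top.mpr f.symm.surjective]; exact le_top)
  have hpush : ∀ S g, g ∈ push S ↔ f.symm g ∈ S := fun S g => Iff.rfl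
  have hpush' : ∀ S n, f n ∈ push S ↔ n ∈ S := fun S n => by rw [hpush, f.symm_apply_apply]
  refine meet_of_orbit N hidx (fun S => le_antisymm (fun m hm => ?_) Subgroup.le_normalizer)
    (fun S T T' hT hT' => ?_) H x
  · refine (hpush' S m).mp ?_
    show f m ∈ (push S : Subgroup (GL (Fin n) 𝔽₂))
    rw [← self_gl (push S), Subgroup.mem_normalizer_iff]
    intro g
    show g ∈ push S ↔ _ ∈ push S
    rw [hpush, hpush, map_mul, map_mul, map_inv, f.symm_apply_apply]
    exact Subgroup.mem_normalizer_iff.mp hm (f.symm g)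
  · have tb : ∀ R : Sylow 2 N, (S : Subgroup N) ⊓ R = ⊥ → (push S : Subgroup (GL (Fin n) (ZMod 2))) ⊓ (push R : Subgroup (GL (Fin n) (ZMod 2))) = ⊥ :=
      fun R hR => by
        rw [eq_bot_iff]
        intro g hg
        obtain ⟨h1, h2⟩ := Subgroup.mem_inf.mp hg
        have : f.symm g ∈ (S : Subgroup N) ⊓ R :=
          Subgroup.mem_inf.mpr ⟨(hpush S g).mp h1, (hpush R g).mp h2⟩
        rw [hR, Subgroup.mem_bot] at this
        exact Subgroup.mem_bot.mpr (by simpa using congrArg f this)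
    obtain ⟨u, hu, huT⟩ := orbit_gl (push S) (push T) (push T') (tb T hT) (tb T' hT')
    refine ⟨f.symm u, hu, ?_⟩
    ext m
    rw [Subgroup.mem_pointwise_smul_iff_inv_smul_mem]
    show _ ∈ T ↔ m ∈ T'
    rw [← hpush' T', ← hpush' T]
    show _ ↔ f m ∈ (push T' : Subgroup (GL (Fin n) 𝔽₂))
    rw [← huT, Subgroup.mem_pointwise_smul_iff_inv_smul_mem]
    simp [← map_inv]
    rfl

end Cfsg.Agent.KnownB.SylowMeet
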