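import Cfsg.Agent.Forms.Reflect
import Mathlib.LinearAlgebra.FiniteDimensional.Lemmas

/-! A non-trivial isometry common to two chains of small totally singular subspaces. -/

set_option autoImplicit false

namespace Cfsg.Agent.KnownB.SylowMeet

open Module
open Cfsg.Agent.Forms (orthGroup orth_mem_iff reflection reflection_apply)

universe u v

variable {F : Type u} [Field F] {V : Type v} [AddCommGroup V] [Module F V]
  (Q : QuadraticForm F V)

local notation "Bf" => QuadraticMap.polarBilin

/-- The linear map of a Siegel transformation. -/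
def siegelMap (e v : V) : V →ₗ[F] V :=
  LinearMap.id + ((Bf Q) e).smulRight v - ((Bf Q) v + Q v • (Bf Q) e).smulRight e

theorem siegelMap_apply (e v x : V) : siegelMap Q e v x =
    x + QuadraticMap.polar Q e x • v -
      (QuadraticMap.polar Q v x + Q v * QuadraticMap.polar Q e x) • e := by
  simp [siegelMap]

theorem polar_singular {e : V} (he : Q e = 0) : QuadraticMap.polar Q e e = 0 := by
  rw [QuadraticMap.polar_self, he, smul_zero]

variable {Q} {e v : V}

theorem siegel_comp (he : Q e = 0) (hev : QuadraticMap.polar Q e v = 0) (w : V)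
    (hw : w = -v) (x : V) : siegelMap Q e w (siegelMap Q e v x) = x := by
  subst hw
  have h1 : QuadraticMap.polar Q e (siegelMap Q e v x) = QuadraticMap.polar Q e x := by
    rw [siegelMap_apply, QuadraticMap.polar_sub_right, QuadraticMap.polar_add_right,
      QuadraticMap.polar_smul_right, QuadraticMap.polar_smul_right, hev, polar_singular Q he,
      smul_zero, smul_zero, add_zero, sub_zero]
  have h2 : QuadraticMap.polar Q (-v) (siegelMap Q e v x) =
      -QuadraticMap.polar Q v x - 2 * Q v * QuadraticMap.polar Q e x := by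
    rw [QuadraticMap.polar_neg_left, siegelMap_apply, QuadraticMap.polar_sub_right,
      QuadraticMap.polar_add_right, QuadraticMap.polar_smul_right, QuadraticMap.polar_smul_right,
      QuadraticMap.polar_comm Q v e, hev, QuadraticMap.polar_self, smul_zero, sub_zero, smul_eq_mul,
      nsmul_eq_mul]
    push_cast
    ring
  rw [siegelMap_apply, h1, h2, siegelMap_apply, QuadraticMap.map_neg, smul_neg]
  module

/-- The Siegel transformation. -/
def siegel (he : Q e = 0) (hev : QuadraticMap.polar Q e v = 0) : orthGroup Q :=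
  ⟨LinearEquiv.ofLinear (siegelMap Q e v) (siegelMap Q e (-v))
      (LinearMap.ext fun x => by
        simpa using siegel_comp (v := -v) he (by rw [QuadraticMap.polar_neg_right, hev, neg_zero]) v
          (neg_neg v).symm x)
      (LinearMap.ext fun x => by simpa using siegel_comp he hev (-v) rfl x),
    (orth_mem_iff Q _).2 fun x => by
      show Q (siegelMap Q e v x) = Q x
      rw [siegelMap_apply, sub_eq_add_neg, ← neg_smul, QuadraticMap.map_add Q, QuadraticMap.map_add Q]
      simp only [QuadraticMap.map_smul, QuadraticMap.polar_smul_right, QuadraticMap.polar_add_left,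
        QuadraticMap.polar_smul_left, smul_eq_mul]
      rw [QuadraticMap.polar_comm Q x e, QuadraticMap.polar_comm Q v e, QuadraticMap.polar_comm Q x v,
        hev, he]
      ring⟩

theorem siegel_apply (he : Q e = 0) (hev : QuadraticMap.polar Q e v = 0) (x : V) :
    (siegel he hev : V ≃ₗ[F] V) x =
      x + QuadraticMap.polar Q e x • v -
        (QuadraticMap.polar Q v x + Q v * QuadraticMap.polar Q e x) • e :=
  siegelMap_apply Q e v x

variable (Q)

/-- A chain of totally singular subspaces of `M`, of small dimension. -/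
structure SChain (M : Submodule F V) (C : Set (Submodule F V)) : Prop where
  total : ∀ W ∈ C, ∀ W' ∈ C, W ≤ W' ∨ W' ≤ W
  le : ∀ W ∈ C, W ≤ M
  sing : ∀ W ∈ C, ∀ w ∈ W, Q w = 0
  dim : ∀ W ∈ C, 2 * finrank F W + 2 ≤ finrank F M

/-- The vectors orthogonal to all of `M`. -/
def perpOf (M : Submodule F V) : Submodule F V :=
  ⨅ x ∈ M, LinearMap.ker ((Bf Q) x)

theorem mem_perpOf {M : Submodule F V} {y : V} :
    y ∈ perpOf Q M ↔ ∀ x ∈ M, QuadraticMap.polar Q x y = 0 := by
  simp [perpOf, Submodule.mem_iInf]

variable {Q}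

theorem SChain.orth {M : Submodule F V} {C : Set (Submodule F V)} (h : SChain Q M C)
    {W : Submodule F V} (hW : W ∈ C) {x y : V} (hx : x ∈ W) (hy : y ∈ W) :
    QuadraticMap.polar Q x y = 0 := by
  rw [QuadraticMap.polar, h.sing W hW _ (add_mem hx hy), h.sing W hW x hx, h.sing W hW y hy,
    sub_zero, sub_zero]

theorem exists_bottom [FiniteDimensional F V] {M : Submodule F V} {C : Set (Submodule F V)}
    (h : SChain Q M C) (hne : ∃ W ∈ C, W ≠ ⊥) :
    ∃ e, e ≠ 0 ∧ e ∈ M ∧ Q e = 0 ∧ ∀ W ∈ C, W = ⊥ ∨ e ∈ W := by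
  classical
  have hex : ∃ d, ∃ W ∈ C, W ≠ ⊥ ∧ finrank F W = d := by
    obtain ⟨W, hW, hW0⟩ := hne
    exact ⟨_, W, hW, hW0, rfl⟩
  obtain ⟨W₀, hW₀, hne₀, hd⟩ := Nat.find_spec hex
  obtain ⟨e, he, he0⟩ := (Submodule.ne_bot_iff _).mp hne₀
  refine ⟨e, he0, h.le _ hW₀ he, h.sing _ hW₀ e he, fun W hW => ?_⟩
  by_cases hW0 : W = ⊥
  · exact Or.inl hW0
  refine Or.inr ?_
  rcases h.total W hW W₀ hW₀ with hle | hle
  · have : finrank F W₀ ≤ finrank F W := hd ▸ Nat.find_min' hex ⟨W, hW, hW0, rfl⟩
    exact (Submodule.eq_of_le_of_finrank_le hle this) ▸ he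
  · exact hle he

/-- A non-trivial isometry of `M` fixing all members of two chains. -/
theorem exists_common_fixer [FiniteDimensional F V] :
    ∀ (d : ℕ) (M : Submodule F V) (C₁ C₂ : Set (Submodule F V)), finrank F M = d → 2 ≤ d →
      (∀ x ∈ M, x ∈ perpOf Q M → x = 0) → SChain Q M C₁ → SChain Q M C₂ →
      ∃ g : orthGroup Q, g ≠ 1 ∧ (∀ x ∈ perpOf Q M, (g : V ≃ₗ[F] V) x = x) ∧
        ∀ W, W ∈ C₁ ∨ W ∈ C₂ → ∀ w ∈ W, (g : V ≃ₗ[F] V) w ∈ W := by
  intro d
  induction d using Nat.strong_induction_on with
  | _ d ih =>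
    intro M C₁ C₂ hd hd2 hnd h₁ h₂
    classical
    by_cases hz : ∀ W, W ∈ C₁ ∨ W ∈ C₂ → W = ⊥
    · obtain ⟨v, hvM, hv⟩ : ∃ v ∈ M, Q v ≠ 0 := by
        by_contra hall
        push Not at hall
        obtain ⟨x, hx, hx0⟩ := (Submodule.ne_bot_iff M).mp fun hM => by
          rw [hM, finrank_bot] at hd
          omega
        refine hx0 (hnd x hx ((mem_perpOf Q).mpr fun y hy => ?_))
        rw [QuadraticMap.polar, hall _ (add_mem hy hx), hall y hy, hall x hx, sub_zero, sub_zero]
      refine ⟨reflection Q v, fun hone => ?_, fun x hx => ?_, fun W hW w hw => ?_⟩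
      · have hv0 : v ≠ 0 := fun h0 => hv (by rw [h0, QuadraticMap.map_zero])
        refine hv0 (hnd v hvM ((mem_perpOf Q).mpr fun y hy => ?_))
        have e := congrArg (fun g : orthGroup Q => (g : V ≃ₗ[F] V) y) hone
        simp only [reflection_apply, Forms.orth_one_apply, sub_eq_self, smul_eq_zero, mul_eq_zero,
          inv_eq_zero, hv, false_or, hv0, or_false] at e
        rw [QuadraticMap.polar_comm]; exact e
      · rw [reflection_apply, (mem_perpOf Q).mp hx v hvM, mul_zero, zero_smul, sub_zero]
      · rw [hz W hW, Submodule.mem_bot] at hw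
        rw [hw, map_zero]
        exact W.zero_mem
    push Not at hz
    obtain ⟨Wne, hWne, hWne0⟩ := hz
    wlog hfirst : ∃ W ∈ C₁, W ≠ ⊥ generalizing C₁ C₂
    · obtain ⟨g, hg1, hg2, hg3⟩ := this C₂ C₁ h₂ h₁ hWne.symm
        ⟨Wne, hWne.resolve_left fun h => hfirst ⟨Wne, h, hWne0⟩, hWne0⟩
      exact ⟨g, hg1, hg2, fun W hW => hg3 W hW.symm⟩
    have hd4 : 4 ≤ d := by
      obtain ⟨W, hW, hW0⟩ := hfirst
      have := h₁.dim W hW
      have := (Submodule.one_le_finrank_iff (S := W)).mpr hW0
      omega
    obtain ⟨e, he0, heM, heQ, he⟩ := exists_bottom h₁ hfirst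
    obtain ⟨f, hf0, hfM, hfQ, hf⟩ : ∃ f, f ≠ 0 ∧ f ∈ M ∧ Q f = 0 ∧ ∀ W ∈ C₂, W = ⊥ ∨ f ∈ W := by
      by_cases hsec : ∃ W ∈ C₂, W ≠ ⊥
      · exact exists_bottom h₂ hsec
      · push Not at hsec
        exact ⟨e, he0, heM, heQ, fun W hW => Or.inl (hsec W hW)⟩
    -- partners of `e` and the orthogonal subspaces
    obtain ⟨x₀, hx₀M, hx₀⟩ : ∃ x ∈ M, QuadraticMap.polar Q e x ≠ 0 := by
      by_contra hall
      push Not at hall
      exact he0 (hnd e heM ((mem_perpOf Q).mpr fun y hy => by
        rw [QuadraticMap.polar_comm]; exact hall y hy))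
    by_cases hef : QuadraticMap.polar Q e f = 0
    · -- a Siegel transformation
      obtain ⟨v, hvM, hev, hvs, hv2⟩ : ∃ v ∈ M, QuadraticMap.polar Q e v = 0 ∧
          v ∉ Submodule.span F {e} ∧
          ∀ W ∈ C₂, W = ⊥ ∨ e ∈ W ∨ (v ∈ W ∧ Q v = 0) := by
        by_cases hfs : f ∈ Submodule.span F {e}
        · obtain ⟨v, hvM, hv⟩ : ∃ v ∈ M ⊓ LinearMap.ker ((Bf Q) e), v ∉ Submodule.span F {e} := by
            by_contra hall
            push Not at hall
            have hle : M ⊓ LinearMap.ker ((Bf Q) e) ≤ Submodule.span F {e} := hall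
            have h1 := Submodule.finrank_mono hle
            rw [finrank_span_singleton he0] at h1
            have hsup : M ≤ (M ⊓ LinearMap.ker ((Bf Q) e)) ⊔ Submodule.span F {x₀} := by
              intro y hy
              refine Submodule.mem_sup.mpr ⟨y - (QuadraticMap.polar Q e y / QuadraticMap.polar Q e x₀) • x₀,
                ⟨sub_mem hy (M.smul_mem _ hx₀M), ?_⟩, _,
                Submodule.smul_mem _ _ (Submodule.mem_span_singleton_self x₀), sub_add_cancel _ _⟩
              rw [SetLike.mem_coe, LinearMap.mem_ker, map_sub, map_smul,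
                QuadraticMap.polarBilin_apply_apply, QuadraticMap.polarBilin_apply_apply, smul_eq_mul,
                div_mul_cancel₀ _ hx₀, sub_self]
            have h2 := (Submodule.finrank_mono hsup).trans
              (Submodule.finrank_add_le_finrank_add_finrank _ _)
            rw [finrank_span_singleton (fun h0 => hx₀ (by rw [h0, QuadraticMap.polar_zero_right]))] at h2
            omega
          refine ⟨v, hvM.1, LinearMap.mem_ker.mp hvM.2, hv, fun W hW => ?_⟩
          rcases hf W hW with h0 | hfW
          · exact Or.inl h0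
          · obtain ⟨c, hc⟩ := Submodule.mem_span_singleton.mp hfs
            have hc0 : c ≠ 0 := fun h0 => hf0 (by rw [← hc, h0, zero_smul])
            exact Or.inr (Or.inl ((W.smul_mem_iff hc0).mp (hc ▸ hfW)))
        · exact ⟨f, hfM, hef, hfs, fun W hW => (hf W hW).imp_right fun h => Or.inr ⟨h, hfQ⟩⟩
      refine ⟨siegel heQ hev, fun hone => ?_, fun x hx => ?_, fun W hW w hw => ?_⟩
      · have e1 := congrArg (fun g : orthGroup Q => (g : V ≃ₗ[F] V) x₀) hone
        simp only [siegel_apply, Forms.orth_one_apply] at e1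
        refine hvs (Submodule.mem_span_singleton.mpr ⟨(QuadraticMap.polar Q e x₀)⁻¹ *
          (QuadraticMap.polar Q v x₀ + Q v * QuadraticMap.polar Q e x₀), ?_⟩)
        rw [← smul_smul, inv_smul_eq_iff₀ hx₀]
        linear_combination (norm := module) -e1
      · rw [siegel_apply, (mem_perpOf Q).mp hx e heM, (mem_perpOf Q).mp hx v hvM, mul_zero, add_zero,
          zero_smul, zero_smul, add_zero, sub_zero]
      · by_cases hW0 : W = ⊥
        · rw [hW0, Submodule.mem_bot] at hw
          rw [hw, map_zero]
          exact W.zero_mem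
        rw [siegel_apply]
        have good : ∀ {C : Set (Submodule F V)}, SChain Q M C → W ∈ C → e ∈ W →
            w + QuadraticMap.polar Q e w • v -
              (QuadraticMap.polar Q v w + Q v * QuadraticMap.polar Q e w) • e ∈ W := by
          intro C hC hWC heW
          rw [hC.orth hWC heW hw, zero_smul, add_zero]
          exact sub_mem hw (W.smul_mem _ heW)
        rcases hW with hW | hW
        · exact good h₁ hW ((he W hW).resolve_left hW0)
        · rcases (hv2 W hW).resolve_left hW0 with heW | ⟨hvW, hvQ⟩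
          · exact good h₂ hW heW
          · rw [h₂.orth hW hvW hw, hvQ, zero_mul, add_zero, zero_smul, sub_zero]
            exact add_mem hw (W.smul_mem _ hvW)
    · -- descend to the orthogonal complement of the hyperbolic plane
      have hfe : QuadraticMap.polar Q f e ≠ 0 := by rwa [QuadraticMap.polar_comm]
      set M' := M ⊓ (LinearMap.ker ((Bf Q) e) ⊓ LinearMap.ker ((Bf Q) f)) with hM'
      have hmem' : ∀ y, y ∈ M' ↔
          y ∈ M ∧ QuadraticMap.polar Q e y = 0 ∧ QuadraticMap.polar Q f y = 0 := fun y => by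
        simp [hM']
      -- decomposition of a vector of `M`
      have hdec : ∀ y ∈ M, ∃ a b : F, y - a • e - b • f ∈ M' := fun y hy => by
        refine ⟨QuadraticMap.polar Q f y / QuadraticMap.polar Q f e,
          QuadraticMap.polar Q e y / QuadraticMap.polar Q e f, (hmem' _).mpr ⟨?_, ?_, ?_⟩⟩
        · exact sub_mem (sub_mem hy (M.smul_mem _ heM)) (M.smul_mem _ hfM)
        · simp [QuadraticMap.polar_sub_right, QuadraticMap.polar_smul_right, polar_singular Q heQ,
            div_mul_cancel₀ _ hef]
        · simp [QuadraticMap.polar_sub_right, QuadraticMap.polar_smul_right, polar_singular Q hfQ,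
            div_mul_cancel₀ _ hfe]
      have hnd' : ∀ x ∈ M', x ∈ perpOf Q M' → x = 0 := fun x hx hxp => by
        obtain ⟨hxM, hxe, hxf⟩ := (hmem' x).mp hx
        refine hnd x hxM ((mem_perpOf Q).mpr fun y hy => ?_)
        obtain ⟨a, b, hab⟩ := hdec y hy
        have := (mem_perpOf Q).mp hxp _ hab
        rw [QuadraticMap.polar_sub_left, QuadraticMap.polar_sub_left, QuadraticMap.polar_smul_left,
          QuadraticMap.polar_smul_left, hxe, hxf, smul_zero, smul_zero, sub_zero, sub_zero] at this
        exact this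
      have hlt : finrank F M' < d := hd ▸ Submodule.finrank_lt_finrank_of_lt
        (lt_of_le_of_ne inf_le_left fun h => hfe ((hmem' e).mp (h.symm ▸ heM)).2.2)
      have hge : d ≤ finrank F M' + 2 := by
        have hsup : M ≤ M' ⊔ Submodule.span F (Set.range ![e, f]) := fun y hy => by
          obtain ⟨a, b, hab⟩ := hdec y hy
          refine Submodule.mem_sup.mpr ⟨_, hab, a • e + b • f, add_mem
            (Submodule.smul_mem _ _ (Submodule.subset_span ⟨0, rfl⟩))
            (Submodule.smul_mem _ _ (Submodule.subset_span ⟨1, rfl⟩)), by abel⟩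
        have := (Submodule.finrank_mono hsup).trans
          (Submodule.finrank_add_le_finrank_add_finrank _ _)
        have h2 : finrank F (Submodule.span F (Set.range ![e, f])) ≤ 2 :=
          (finrank_range_le_card _).trans (by simp)
        omega
      have hchain : ∀ {C : Set (Submodule F V)} (u : V), SChain Q M C → u ∉ M' →
          (∀ W ∈ C, W = ⊥ ∨ u ∈ W) → SChain Q M' ((fun W => W ⊓ M') '' C) := by
        intro C u hC huM' hu
        refine ⟨?_, ?_, ?_, ?_⟩
        · rintro _ ⟨W, hW, rfl⟩ _ ⟨W', hW', rfl⟩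
          exact (hC.total W hW W' hW').imp (inf_le_inf_right _) (inf_le_inf_right _)
        · rintro _ ⟨W, hW, rfl⟩
          exact inf_le_right
        · rintro _ ⟨W, hW, rfl⟩ w hw
          exact hC.sing W hW w hw.1
        · rintro _ ⟨W, hW, rfl⟩
          show 2 * finrank F ↥(W ⊓ M') + 2 ≤ _
          rcases hu W hW with h0 | huW
          · subst h0
            rw [bot_inf_eq, finrank_bot]
            omega
          · have := hC.dim W hW
            have : finrank F ↥(W ⊓ M') < finrank F W := Submodule.finrank_lt_finrank_of_lt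
              (lt_of_le_of_ne inf_le_left fun h => huM' ((h.symm ▸ huW : u ∈ W ⊓ M').2))
            omega
      obtain ⟨g, hg1, hgp, hgW⟩ := ih (finrank F M') hlt M' _ _ rfl (by omega) hnd'
        (hchain e h₁ (fun h => hfe ((hmem' e).mp h).2.2) he)
        (hchain f h₂ (fun h => hef ((hmem' f).mp h).2.1) hf)
      have hperp : perpOf Q M ≤ perpOf Q M' := fun x hx =>
        (mem_perpOf Q).mpr fun y hy => (mem_perpOf Q).mp hx y hy.1
      refine ⟨g, hg1, fun x hx => hgp x (hperp hx), fun W hW w hw => ?_⟩
      by_cases hW0 : W = ⊥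
      · rw [hW0, Submodule.mem_bot] at hw
        rw [hw, map_zero]
        exact W.zero_mem
      have hgu : ∀ u, (u = e ∨ u = f) → (g : V ≃ₗ[F] V) u = u := fun u hu => by
        refine hgp u ((mem_perpOf Q).mpr fun y hy => ?_)
        rw [QuadraticMap.polar_comm]
        rcases hu with rfl | rfl
        · exact ((hmem' y).mp hy).2.1
        · exact ((hmem' y).mp hy).2.2
      rcases hW with hW | hW
      · have heW := (he W hW).resolve_left hW0
        set a := QuadraticMap.polar Q f w / QuadraticMap.polar Q f e with ha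
        have hwa : w - a • e ∈ W ⊓ M' :=
          ⟨sub_mem hw (W.smul_mem _ heW), (hmem' _).mpr ⟨sub_mem (h₁.le W hW hw) (M.smul_mem _ heM),
            by simp [QuadraticMap.polar_sub_right, QuadraticMap.polar_smul_right, h₁.orth hW heW hw,
              polar_singular Q heQ],
            by simp [ha, QuadraticMap.polar_sub_right, QuadraticMap.polar_smul_right,
              div_mul_cancel₀ _ hfe]⟩⟩
        have h := hgW (W ⊓ M') (Or.inl ⟨W, hW, rfl⟩) _ hwa
        rw [map_sub, map_smul, hgu e (Or.inl rfl)] at h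
        simpa using add_mem h.1 (W.smul_mem a heW)
      · have hfW := (hf W hW).resolve_left hW0
        set a := QuadraticMap.polar Q e w / QuadraticMap.polar Q e f with ha
        have hwa : w - a • f ∈ W ⊓ M' :=
          ⟨sub_mem hw (W.smul_mem _ hfW), (hmem' _).mpr ⟨sub_mem (h₂.le W hW hw) (M.smul_mem _ hfM),
            by simp [ha, QuadraticMap.polar_sub_right, QuadraticMap.polar_smul_right,
              div_mul_cancel₀ _ hef],
            by simp [QuadraticMap.polar_sub_right, QuadraticMap.polar_smul_right, h₂.orth hW hfW hw,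
              polar_singular Q hfQ]⟩⟩
        have h := hgW (W ⊓ M') (Or.inr ⟨W, hW, rfl⟩) _ hwa
        rw [map_sub, map_smul, hgu f (Or.inr rfl)] at h
        simpa using add_mem h.1 (W.smul_mem a hfW)

end Cfsg.Agent.KnownB.SylowMeet
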