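import Cfsg.Agent.KnownB.SylowMeet.OrthFixer
import Cfsg.Agent.Forms.OrthBridgeSimple
import Mathlib.GroupTheory.Sylow
import Mathlib.GroupTheory.Nilpotent
import Mathlib.GroupTheory.Perm.Cycle.Type
import Mathlib.Algebra.CharP.Lemmas

/-! Two Sylow 2-subgroups of `O⁺_{2m}(2)` meet non-trivially. -/

set_option autoImplicit false

namespace Cfsg.Agent.KnownB.SylowMeet

open scoped Pointwise
open Module
open Cfsg.Agent.Forms (orthGroup qPlus polar_qPlus)

universe u

variable {F : Type u} [Field F] {m : ℕ}

local notation "Vm" => (Fin m ⊕ Fin m → F)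

/-- The standard flag. -/
def flag (F : Type u) [Field F] (m i : ℕ) : Submodule F (Fin m ⊕ Fin m → F) where
  carrier := {v | (∀ j, v (Sum.inr j) = 0) ∧ ∀ j : Fin m, i ≤ (j : ℕ) → v (Sum.inl j) = 0}
  add_mem' := fun {x y} hx hy => ⟨fun j => by simp [hx.1 j, hy.1 j],
    fun j hj => by simp [hx.2 j hj, hy.2 j hj]⟩
  zero_mem' := ⟨fun _ => rfl, fun _ _ => rfl⟩
  smul_mem' := fun c x hx => ⟨fun j => by simp [hx.1 j], fun j hj => by simp [hx.2 j hj]⟩

/-- The orthogonal of a flag member. -/
def flagPerp (F : Type u) [Field F] (m i : ℕ) : Submodule F (Fin m ⊕ Fin m → F) where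
  carrier := {v | ∀ j : Fin m, (j : ℕ) < i → v (Sum.inr j) = 0}
  add_mem' := fun {x y} hx hy j hj => by simp [hx j hj, hy j hj]
  zero_mem' := fun _ _ => rfl
  smul_mem' := fun c x hx j hj => by simp [hx j hj]

theorem flag_mono {i j : ℕ} (h : i ≤ j) : flag F m i ≤ flag F m j :=
  fun _ hv => ⟨hv.1, fun l hl => hv.2 l (h.trans hl)⟩

theorem flag_zero : flag F m 0 = ⊥ :=
  eq_bot_iff.mpr fun v hv => funext fun s => by
    cases s with
    | inl j => exact hv.2 j (Nat.zero_le _)
    | inr j => exact hv.1 j

theorem flag_sing {i : ℕ} {v : Vm} (hv : v ∈ flag F m i) : qPlus m F v = 0 := by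
  rw [Forms.coe_qPlus]
  exact Finset.sum_eq_zero fun j _ => by rw [hv.1 j, mul_zero]

theorem polar_flagPerp {i : ℕ} {w v : Vm} (hw : w ∈ flag F m i) (hv : v ∈ flagPerp F m i) :
    QuadraticMap.polar (qPlus m F) w v = 0 := by
  rw [polar_qPlus]
  refine Finset.sum_eq_zero fun j _ => ?_
  rw [hw.1 j, mul_zero, add_zero]
  by_cases hj : (j : ℕ) < i
  · rw [hv j hj, mul_zero]
  · rw [hw.2 j (not_lt.mp hj), zero_mul]

theorem flag_le_perp {i k : ℕ} : flag F m i ≤ flagPerp F m k := fun _ hv j _ => hv.1 j

theorem finrank_flag {i : ℕ} (hi : i ≤ m) : finrank F (flag F m i) ≤ i := by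
  let f : flag F m i →ₗ[F] (Fin i → F) :=
    { toFun := fun v j => (v : Vm) (Sum.inl ⟨j, lt_of_lt_of_le j.2 hi⟩)
      map_add' := fun _ _ => rfl
      map_smul' := fun _ _ => rfl }
  have hf : Function.Injective f := fun x y h => by
    refine Subtype.ext (funext fun s => ?_)
    cases s with
    | inr j => rw [x.2.1 j, y.2.1 j]
    | inl j =>
      by_cases hj : (j : ℕ) < i
      · exact congrFun h ⟨j, hj⟩
      · rw [x.2.2 j (not_lt.mp hj), y.2.2 j (not_lt.mp hj)]
  simpa using LinearMap.finrank_le_finrank_of_injective hf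

/-- The stabiliser of the flag. -/
def flagStab (F : Type u) [Field F] [Finite F] (m : ℕ) : Subgroup (orthGroup (qPlus m F)) where
  carrier := {g | ∀ i, i < m → ∀ w ∈ flag F m i,
    (g : (Fin m ⊕ Fin m → F) ≃ₗ[F] _) w ∈ flag F m i}
  one_mem' := fun _ _ _ hw => hw
  mul_mem' := fun {a b} ha hb i hi w hw => ha i hi _ (hb i hi w hw)
  inv_mem' := fun {a} ha i hi w hw => by
    let a' : (Fin m ⊕ Fin m → F) ≃ₗ[F] (Fin m ⊕ Fin m → F) := a
    have hinj : Function.Injective fun x : flag F m i => (⟨a' x, ha i hi x x.2⟩ : flag F m i) :=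
      fun x y h => Subtype.ext (a'.injective (congrArg Subtype.val h))
    obtain ⟨x, hx⟩ := Finite.surjective_of_injective hinj ⟨w, hw⟩
    show a'.symm w ∈ flag F m i
    rw [show w = a' x from (congrArg Subtype.val hx).symm, LinearEquiv.symm_apply_apply]
    exact x.2

variable [Finite F]

theorem two_elements (hF : Nat.card F = 2) (a : F) : a = 0 ∨ a = 1 := by
  obtain ⟨x, -, huniq⟩ := Nat.card_eq_two_iff' (0 : F) |>.mp hF
  by_cases ha : a = 0
  · exact Or.inl ha
  · exact Or.inr ((huniq a ha).trans (huniq 1 one_ne_zero).symm)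

theorem two_eq_zero (hF : Nat.card F = 2) : (2 : F) = 0 := by
  rcases two_elements hF 2 with h | h
  · exact h
  · exact absurd (by linear_combination h : (1 : F) = 0) one_ne_zero

/-- An element of odd order moving vectors only by fixed ones fixes them. -/
theorem fix_of_odd (hF : Nat.card F = 2) {g : Vm ≃ₗ[F] Vm} {r : ℕ} (hr : Odd r) (hg : g ^ r = 1)
    {v : Vm} (h : g (g v - v) = g v - v) : g v = v := by
  set w := g v - v with hw
  have hgv : g v = v + w := by rw [hw]; abel
  have hpow : ∀ k : ℕ, (g ^ k) v = v + (k : F) • w := fun k => by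
    induction k with
    | zero => simp
    | succ k ih =>
      rw [pow_succ', LinearEquiv.mul_apply, ih, map_add, map_smul, h, hgv, Nat.cast_succ, add_smul,
        one_smul]
      abel
  have hr1 : (r : F) = 1 := by
    obtain ⟨l, rfl⟩ := hr
    push_cast
    rw [two_eq_zero hF, zero_mul, zero_add]
  have := hpow r
  rw [hg, hr1, one_smul, LinearEquiv.coe_one, id_eq, left_eq_add] at this
  rwa [this, add_zero] at hgv

omit [Finite F] in
theorem flag_step {i : ℕ} (hi : i < m) {v : Vm} (hv : v ∈ flag F m (i + 1))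
    (hv' : v (Sum.inl ⟨i, hi⟩) = 0) : v ∈ flag F m i :=
  ⟨hv.1, fun j hj => by
    rcases eq_or_lt_of_le hj with h | h
    · rwa [show j = ⟨i, hi⟩ from Fin.ext h.symm]
    · exact hv.2 j h⟩

/-- The stabiliser acts trivially on the factors of the flag. -/
theorem stab_step (hF : Nat.card F = 2) {g : orthGroup (qPlus m F)} (hg : g ∈ flagStab F m) {i : ℕ}
    (hi : i + 1 < m) {v : Vm} (hv : v ∈ flag F m (i + 1)) :
    (g : Vm ≃ₗ[F] Vm) v - v ∈ flag F m i := by
  have hi' : i < m := by omega
  have hgv := hg (i + 1) hi v hv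
  by_cases hv0 : v (Sum.inl ⟨i, hi'⟩) = 0
  · exact sub_mem (hg i hi' v (flag_step hi' hv hv0)) (flag_step hi' hv hv0)
  · refine flag_step hi' (sub_mem hgv hv) ?_
    have hv1 := (two_elements hF (v (Sum.inl ⟨i, hi'⟩))).resolve_left hv0
    rcases two_elements hF ((g : Vm ≃ₗ[F] Vm) v (Sum.inl ⟨i, hi'⟩)) with h | h
    · refine absurd ?_ hv0
      have := (flagStab F m).inv_mem hg i hi' _ (flag_step hi' hgv h)
      rw [Forms.orth_inv_apply, LinearEquiv.symm_apply_apply] at this
      exact this.2 _ le_rfl
    · rw [Pi.sub_apply, h, hv1, sub_self]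

/-- An element of odd order in the stabiliser is trivial. -/
theorem stab_odd (hF : Nat.card F = 2) (hm : 1 ≤ m) {g : orthGroup (qPlus m F)}
    (hg : g ∈ flagStab F m) {r : ℕ} (hr : Odd r) (hgr : g ^ r = 1) : g = 1 := by
  -- it suffices to treat the square
  suffices key : ∀ g : orthGroup (qPlus m F), g ∈ flagStab F m → g ^ r = 1 →
      (∀ v ∈ flagPerp F m (m - 1), (g : Vm ≃ₗ[F] Vm) v - v ∈ flag F m (m - 1)) → g = 1 by
    have hsq : g * g = 1 := by
      refine key _ (mul_mem hg hg) (by rw [← pow_two, ← pow_mul, mul_comm, pow_mul, hgr, one_pow]) ?_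
      set g' : Vm ≃ₗ[F] Vm := (g : Vm ≃ₗ[F] Vm) with hg'
      set W := flag F m (m - 1) with hW
      have hperp : ∀ v ∈ flagPerp F m (m - 1), g' v ∈ flagPerp F m (m - 1) := by
        intro v hv j hj
        have h1 : QuadraticMap.polar (qPlus m F) (Pi.single (Sum.inl j) 1) (g' v) = 0 := by
          have hmem : (Pi.single (Sum.inl j) 1 : Vm) ∈ W :=
            ⟨fun l => by simp, fun l hl => by
              have : l ≠ j := fun h => by subst h; omega
              simp [this]⟩
          have hpre := (flagStab F m).inv_mem hg (m - 1) (by omega) _ hmem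
          set z : Vm := ((g⁻¹ : orthGroup (qPlus m F)) : Vm ≃ₗ[F] Vm)
            (Pi.single (Sum.inl j) 1) with hz
          have e := Forms.orth_polar (qPlus m F) g z v
          rw [hz, Forms.orth_inv_apply, LinearEquiv.apply_symm_apply] at e
          rw [e]
          exact polar_flagPerp hpre hv
        rw [polar_qPlus, Finset.sum_eq_single j] at h1
        · simpa using h1
        · intro l _ hl; simp [hl]
        · simp
      -- the middle layer is a hyperbolic plane over two elements
      let last : Fin m := ⟨m - 1, by omega⟩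
      let x : Vm := Pi.single (Sum.inl last) 1
      let y : Vm := Pi.single (Sum.inr last) 1
      have hxy : ∀ v ∈ flagPerp F m (m - 1),
          v - v (Sum.inl last) • x - v (Sum.inr last) • y ∈ W := by
        intro v hv
        refine ⟨fun j => ?_, fun j hj => ?_⟩
        · by_cases hj : j = last
          · subst hj; simp [x, y]
          · have : (j : ℕ) < m - 1 := by
              have := j.2
              have : (j : ℕ) ≠ m - 1 := fun h => hj (Fin.ext h)
              omega
            simp [x, y, hj, hv j this]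
        · have : j = last := Fin.ext (by have := j.2; simp only [last]; omega)
          subst this; simp [x, y]
      have hq : ∀ v ∈ flagPerp F m (m - 1),
          qPlus m F v = v (Sum.inl last) * v (Sum.inr last) := by
        intro v hv
        rw [Forms.coe_qPlus]
        show ∑ j, v (Sum.inl j) * v (Sum.inr j) = _
        refine Finset.sum_eq_single last (fun j _ hj => ?_) (by simp)
        have : (j : ℕ) < m - 1 := by
          have := j.2
          have : (j : ℕ) ≠ m - 1 := fun h => hj (Fin.ext h)
          omega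
        rw [hv j this, mul_zero]
      have hxP : x ∈ flagPerp F m (m - 1) := fun j _ => by simp [x]
      have hyP : y ∈ flagPerp F m (m - 1) := fun j hj => by
        have : j ≠ last := fun h => by subst h; simp [last] at hj
        simp [y, this]
      -- images of the two basis vectors modulo the flag
      have hmodeq : ∀ v ∈ flagPerp F m (m - 1), v ∈ W ↔
          v (Sum.inl last) = 0 ∧ v (Sum.inr last) = 0 := by
        intro v hv
        constructor
        · exact fun h => ⟨h.2 last le_rfl, h.1 last⟩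
        · rintro ⟨h1, h2⟩
          simpa [h1, h2] using hxy v hv
      have hWinv : ∀ v, g' v ∈ W → v ∈ W := fun v hv => by
        have := (flagStab F m).inv_mem hg (m - 1) (by omega) _ hv
        rwa [Forms.orth_inv_apply, LinearEquiv.symm_apply_apply] at this
      intro v hv
      have hb : ∀ u ∈ flagPerp F m (m - 1), qPlus m F u = 0 → u ∉ W →
          (u (Sum.inl last) = 1 ∧ u (Sum.inr last) = 0) ∨
            (u (Sum.inl last) = 0 ∧ u (Sum.inr last) = 1) := by
        intro u hu hQu huW
        rw [hq u hu] at hQu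
        rw [hmodeq u hu] at huW
        rcases two_elements hF (u (Sum.inl last)) with h | h <;>
          rcases two_elements hF (u (Sum.inr last)) with h' | h' <;>
          simp [h, h'] at hQu huW ⊢
      have hx' : x ∉ W := fun h => by simpa [x] using h.2 last le_rfl
      have hy' : y ∉ W := fun h => by simpa [y] using h.1 last
      have hQx : qPlus m F x = 0 := by rw [hq x hxP]; simp [x, y]
      have hQy : qPlus m F y = 0 := by rw [hq y hyP]; simp [x, y]
      have himg : ∀ u ∈ flagPerp F m (m - 1), qPlus m F u = 0 → u ∉ W →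
          g' u ∈ flagPerp F m (m - 1) ∧ qPlus m F (g' u) = 0 ∧ g' u ∉ W := fun u hu hQu huW =>
        ⟨hperp u hu, (g.2.2 u).trans hQu, fun h => huW (hWinv u h)⟩
      -- distinct classes go to distinct classes
      have hdist : ¬ (g' x - g' y ∈ W) := fun h => by
        have := hWinv (x - y) (by rwa [map_sub])
        simpa [x, y] using this.1 last
      have hcl : ∀ u ∈ flagPerp F m (m - 1), ∀ u' ∈ flagPerp F m (m - 1),
          u (Sum.inl last) = u' (Sum.inl last) → u (Sum.inr last) = u' (Sum.inr last) →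
          u - u' ∈ W := fun u hu u' hu' h1 h2 =>
        (hmodeq _ (sub_mem hu hu')).mpr ⟨by simp [h1], by simp [h2]⟩
      obtain ⟨hgx, hQgx, hgxW⟩ := himg x hxP hQx hx'
      obtain ⟨hgy, hQgy, hgyW⟩ := himg y hyP hQy hy'
      have h2x : g' (g' x) - x ∈ W ∧ g' (g' y) - y ∈ W := by
        rcases hb _ hgx hQgx hgxW with ⟨a1, a2⟩ | ⟨a1, a2⟩ <;>
          rcases hb _ hgy hQgy hgyW with ⟨b1, b2⟩ | ⟨b1, b2⟩
        · exact absurd (hcl _ hgx _ hgy (a1.trans b1.symm) (a2.trans b2.symm)) hdist
        · have e1 : g' x - x ∈ W := hcl _ hgx _ hxP (by simpa [x] using a1) (by simpa [x] using a2)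
          have e2 : g' y - y ∈ W := hcl _ hgy _ hyP (by simpa [y] using b1) (by simpa [y] using b2)
          have hgW : ∀ w ∈ W, g' w ∈ W := fun w hw => hg _ (by omega) w hw
          constructor
          · have := add_mem (hgW _ e1) e1; rw [map_sub] at this; simpa using this
          · have := add_mem (hgW _ e2) e2; rw [map_sub] at this; simpa using this
        · have e1 : g' x - y ∈ W := hcl _ hgx _ hyP (by simpa [y] using a1) (by simpa [y] using a2)
          have e2 : g' y - x ∈ W := hcl _ hgy _ hxP (by simpa [x] using b1) (by simpa [x] using b2)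
          have hgW : ∀ w ∈ W, g' w ∈ W := fun w hw => hg _ (by omega) w hw
          constructor
          · have := add_mem (hgW _ e1) e2; rw [map_sub] at this; simpa using this
          · have := add_mem (hgW _ e2) e1; rw [map_sub] at this; simpa using this
        · exact absurd (hcl _ hgx _ hgy (a1.trans b1.symm) (a2.trans b2.symm)) hdist
      show g' (g' v) - v ∈ W
      set w := v - v (Sum.inl last) • x - v (Sum.inr last) • y with hw
      have hwW : w ∈ W := hxy v hv
      have hgW : ∀ w ∈ W, g' w ∈ W := fun w hw => hg _ (by omega) w hw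
      have := add_mem (add_mem (W.smul_mem (v (Sum.inl last)) h2x.1)
        (W.smul_mem (v (Sum.inr last)) h2x.2)) (sub_mem (hgW _ (hgW _ hwW)) hwW)
      convert this using 1
      simp only [hw, map_sub, map_smul]
      module
    have h1 : g ^ r = g := by
      obtain ⟨l, rfl⟩ := hr
      rw [pow_succ, pow_mul, pow_two, hsq, one_pow, one_mul]
    rw [← h1, hgr]
  intro g hg hgr hmid
  set g' : Vm ≃ₗ[F] Vm := (g : Vm ≃ₗ[F] Vm) with hg'
  have hg'r : g' ^ r = 1 := by
    show ((g : Vm ≃ₗ[F] Vm)) ^ r = 1
    rw [← SubmonoidClass.coe_pow, hgr]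
    rfl
  have hflag : ∀ i, i < m → ∀ w ∈ flag F m i, g' w = w := by
    intro i
    induction i with
    | zero =>
      intro _ w hw
      rw [flag_zero, Submodule.mem_bot] at hw
      rw [hw, map_zero]
    | succ i ih =>
      intro hi w hw
      exact fix_of_odd hF hr hg'r (ih (by omega) _ (stab_step hF hg hi hw))
  have hmidfix : ∀ v ∈ flagPerp F m (m - 1), g' v = v := fun v hv =>
    fix_of_odd hF hr hg'r (hflag _ (by omega) _ (hmid v hv))
  refine Forms.orth_ext fun v => fix_of_odd hF hr hg'r (hflag (m - 1) (by omega) _ ?_)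
  have hB : ∀ u ∈ flagPerp F m (m - 1),
      QuadraticMap.polar (qPlus m F) u (g' v - v) = 0 := fun u hu => by
    rw [QuadraticMap.polar_sub_right, sub_eq_zero]
    nth_rewrite 1 [← hmidfix u hu]
    exact Forms.orth_polar _ g u v
  constructor
  · intro j
    have := hB (Pi.single (Sum.inl j) 1) (fun l _ => by simp)
    rw [polar_qPlus, Finset.sum_eq_single j] at this
    · simpa using this
    · intro l _ hl; simp [hl]
    · simp
  · intro j hj
    have := hB (Pi.single (Sum.inr j) 1) (fun l hl => by
      have : l ≠ j := fun h => by subst h; omega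
      simp [this])
    rw [polar_qPlus, Finset.sum_eq_single j] at this
    · simpa using this
    · intro l _ hl; simp [hl]
    · simp

theorem isPGroup_flagStab (hF : Nat.card F = 2) (hm : 1 ≤ m) : IsPGroup 2 (flagStab F m) := by
  haveI : Finite (orthGroup (qPlus m F)) :=
    Finite.of_injective (fun g => ⇑(g : Vm ≃ₗ[F] Vm)) fun g h e => Forms.orth_ext (congrFun e)
  refine IsPGroup.of_card (n := (Nat.card (flagStab F m)).primeFactorsList.length) ?_
  by_contra hne
  obtain ⟨r, hr, hrd, hr2⟩ : ∃ r, r.Prime ∧ r ∣ Nat.card (flagStab F m) ∧ r ≠ 2 := by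
    by_contra hall
    push Not at hall
    exact hne (Nat.eq_prime_pow_of_unique_prime_dvd Nat.card_pos.ne' fun {d} hd hdd =>
      hall d hd hdd)
  haveI := Fact.mk hr
  obtain ⟨g, hg⟩ := exists_prime_orderOf_dvd_card' r hrd
  have h1 := stab_odd hF hm g.2 (hr.odd_of_ne_two hr2)
    (by rw [← SubmonoidClass.coe_pow, ← hg, pow_orderOf_eq_one]; rfl)
  rw [show g = 1 from Subtype.ext h1, orderOf_one] at hg
  exact hr.ne_one hg.symm

/-- The stabiliser of the flag is self-normalising. -/
theorem normalizer_flagStab (hF : Nat.card F = 2) :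
    Subgroup.normalizer ((flagStab F m : Subgroup (orthGroup (qPlus m F))) : Set _) = flagStab F m := by
  refine le_antisymm (fun g hg => ?_) Subgroup.le_normalizer
  intro i
  induction i with
  | zero =>
    intro _ w hw
    rw [flag_zero, Submodule.mem_bot] at hw ⊢
    rw [hw, map_zero]
  | succ i ih =>
    intro hi w hw
    have hi' : i < m := by omega
    set g' : Vm ≃ₗ[F] Vm := (g : Vm ≃ₗ[F] Vm) with hg'
    set v := g' w with hv
    -- all elements of the stabiliser fix `v` modulo the previous member
    have hfix : ∀ k ∈ flagStab F m, (k : Vm ≃ₗ[F] Vm) v - v ∈ flag F m i := by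
      intro k hk
      have hk' : g⁻¹ * k * g ∈ flagStab F m := by
        have := (Subgroup.mem_normalizer_iff.mp (inv_mem hg) k).mp hk
        rwa [inv_inv] at this
      have h := ih hi' _ (stab_step hF hk' hi hw)
      rw [map_sub, Forms.orth_mul_apply, Forms.orth_mul_apply, Forms.orth_inv_apply,
        LinearEquiv.apply_symm_apply] at h
      exact h
    have h2 : (2 : F) = 0 := two_eq_zero hF
    let x : Vm := Pi.single (Sum.inl ⟨i, hi'⟩) 1
    have hxmem : x ∈ flag F m (i + 1) := ⟨fun l => by simp [x], fun l hl => by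
      have : l ≠ ⟨i, hi'⟩ := fun h => by subst h; simp at hl
      simp [x, this]⟩
    have hQx : qPlus m F x = 0 := flag_sing hxmem
    have hrho : ∀ u ∈ flagPerp F m (i + 1),
        QuadraticMap.polar (qPlus m F) x v • u -
          (QuadraticMap.polar (qPlus m F) u v + qPlus m F u * QuadraticMap.polar (qPlus m F) x v) • x
          ∈ flag F m i := by
      intro u hu
      have hxu := polar_flagPerp hxmem hu
      have hk : siegel hQx hxu ∈ flagStab F m := by
        intro l _ z hz
        rw [siegel_apply, polar_flagPerp hxmem (flag_le_perp hz), zero_smul, add_zero, mul_zero,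
          add_zero]
        rcases le_or_gt l i with hl | hl
        · rw [QuadraticMap.polar_comm, polar_flagPerp (flag_mono (F := F) (by omega : l ≤ i + 1) hz) hu,
            zero_smul, sub_zero]
          exact hz
        · exact sub_mem hz (Submodule.smul_mem _ _ (flag_mono hl hxmem))
      have := hfix _ hk
      rwa [siegel_apply, add_sub_assoc, add_sub_cancel_left] at this
    have hBx : QuadraticMap.polar (qPlus m F) x v = 0 := by
      by_contra hne
      let u : Vm := Pi.single (Sum.inl ⟨i + 1, hi⟩) 1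
      have h := (hrho u (fun l _ => by simp [u])).2 ⟨i + 1, hi⟩ (Nat.le_succ i)
      simp [u, x, -Forms.coe_qPlus] at h
      exact hne h
    have hall : ∀ u ∈ flagPerp F m (i + 1), QuadraticMap.polar (qPlus m F) u v = 0 := fun u hu => by
      have h := (hrho u hu).2 ⟨i, hi'⟩ le_rfl
      rw [Pi.sub_apply, Pi.smul_apply, Pi.smul_apply, hBx] at h
      simpa [x, -Forms.coe_qPlus] using h
    constructor
    · intro j
      have := hall (Pi.single (Sum.inl j) 1) (fun l _ => by simp)
      rw [polar_qPlus, Finset.sum_eq_single j] at this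
      · simpa using this
      · intro l _ hl; simp [hl]
      · simp
    · intro j hj
      have := hall (Pi.single (Sum.inr j) 1) (fun l hl => by
        have : l ≠ j := fun h => by subst h; omega
        simp [this])
      rw [polar_qPlus, Finset.sum_eq_single j] at this
      · simpa using this
      · intro l _ hl; simp [hl]
      · simp

/-- Two Sylow 2-subgroups of `O⁺_{2m}(2)` meet. -/
theorem meet_orth {G : Type*} [Group G] (hF : Nat.card F = 2) (hm : 2 ≤ m)
    (e : G ≃* orthGroup (qPlus m F)) (H : Sylow 2 G) (x : G) :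
    (H : Subgroup G) ⊓ MulAut.conj x • (H : Subgroup G) ≠ ⊥ := by
  haveI : Finite (orthGroup (qPlus m F)) :=
    Finite.of_injective (fun g => ⇑(g : Vm ≃ₗ[F] Vm)) fun g h e => Forms.orth_ext (congrFun e)
  set K : Subgroup (orthGroup (qPlus m F)) := flagStab F m with hK
  obtain ⟨S, hS⟩ := (isPGroup_flagStab hF (by omega : 1 ≤ m)).exists_le_sylow
  have hSK : (S : Subgroup (orthGroup (qPlus m F))) = K := by
    refine le_antisymm ?_ hS
    by_contra hne
    haveI := S.isPGroup'.isNilpotent
    have hnc := Group.normalizerCondition_of_isNilpotent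
      (G := ↥(S : Subgroup (orthGroup (qPlus m F)))) (K.subgroupOf S)
      (lt_top_iff_ne_top.mpr fun h => hne (Subgroup.subgroupOf_eq_top.mp h))
    obtain ⟨s, hs, hs'⟩ := SetLike.exists_of_lt hnc
    refine hs' (Subgroup.mem_subgroupOf.mpr ?_)
    rw [hK, ← normalizer_flagStab hF, Subgroup.mem_normalizer_iff]
    intro g
    rw [Subgroup.mem_normalizer_iff] at hs
    constructor
    · intro hg
      exact Subgroup.mem_subgroupOf.mp ((hs ⟨g, hS hg⟩).mp (Subgroup.mem_subgroupOf.mpr hg))
    · intro hg
      have hgS : g ∈ (S : Subgroup (orthGroup (qPlus m F))) := by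
        have := mul_mem (mul_mem (inv_mem s.2) (hS hg)) s.2
        simpa [mul_assoc] using this
      exact Subgroup.mem_subgroupOf.mp ((hs ⟨g, hgS⟩).mpr (Subgroup.mem_subgroupOf.mpr hg))
  let H' : Sylow 2 (orthGroup (qPlus m F)) := H.comapOfInjective e.symm.toMonoidHom e.symm.injective
    (by rw [MonoidHom.range_eq_top.mpr e.symm.surjective]; exact le_top)
  have hH' : ∀ g, g ∈ H' ↔ e.symm g ∈ H := fun g => Iff.rfl
  obtain ⟨a, ha⟩ := MulAction.exists_smul_eq (orthGroup (qPlus m F)) S H'
  -- conjugates of the flag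
  let img : orthGroup (qPlus m F) → Set (Submodule F Vm) := fun c =>
    {W | ∃ i, i < m ∧ W = (flag F m i).map ((c : Vm ≃ₗ[F] Vm) : Vm →ₗ[F] Vm)}
  have hchain : ∀ c, SChain (qPlus m F) ⊤ (img c) := by
    intro c
    refine ⟨?_, fun _ _ => le_top, ?_, ?_⟩
    · rintro _ ⟨i, -, rfl⟩ _ ⟨j, -, rfl⟩
      exact (le_total i j).imp (fun h => Submodule.map_mono (flag_mono h))
        fun h => Submodule.map_mono (flag_mono h)
    · rintro _ ⟨i, -, rfl⟩ w hw
      obtain ⟨z, hz, rfl⟩ := Submodule.mem_map.mp hw
      exact (c.2.2 z).trans (flag_sing hz)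
    · rintro _ ⟨i, hi, rfl⟩
      rw [finrank_top, Module.finrank_fintype_fun_eq_card, Fintype.card_sum, Fintype.card_fin]
      have h1 := finrank_flag (F := F) hi.le
      rw [LinearEquiv.finrank_map_eq]
      omega
  obtain ⟨g, hg1, -, hg⟩ := exists_common_fixer (Q := qPlus m F) _ ⊤ (img a) (img (e x * a)) rfl
    (by rw [finrank_top, Module.finrank_fintype_fun_eq_card, Fintype.card_sum, Fintype.card_fin]
        omega)
    (fun z _ hz => Forms.qPlus_nondegenerate.2 z fun y => by
      exact (mem_perpOf _).mp hz y Submodule.mem_top)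
    (hchain _) (hchain _)
  have hin : ∀ c, (∀ W ∈ img c, ∀ w ∈ W, (g : Vm ≃ₗ[F] Vm) w ∈ W) → c⁻¹ * g * c ∈ K := by
    intro c hc i hi w hw
    have := hc _ ⟨i, hi, rfl⟩ _ (Submodule.mem_map_of_mem hw)
    obtain ⟨z, hz, hze⟩ := Submodule.mem_map.mp this
    rw [Forms.orth_mul_apply, Forms.orth_mul_apply, Forms.orth_inv_apply]
    change (c : Vm ≃ₗ[F] Vm) z = (g : Vm ≃ₗ[F] Vm) ((c : Vm ≃ₗ[F] Vm) w) at hze
    rw [← hze, LinearEquiv.symm_apply_apply]
    exact hz
  have hmemH : ∀ y, a⁻¹ * y * a ∈ K → e.symm y ∈ H := by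
    intro y hy
    rw [← hH']
    show y ∈ (H' : Subgroup (orthGroup (qPlus m F)))
    rw [← ha, Sylow.coe_subgroup_smul, Subgroup.mem_pointwise_smul_iff_inv_smul_mem, MulAut.smul_def,
      ← map_inv, MulAut.conj_apply, inv_inv, hSK]
    exact hy
  intro hbot
  have h0 : e.symm g ∈ (H : Subgroup G) ⊓ MulAut.conj x • (H : Subgroup G) := by
    refine Subgroup.mem_inf.mpr ⟨hmemH g (hin a fun W hW => hg W (Or.inl hW)), ?_⟩
    have h := hmemH ((e x)⁻¹ * g * e x) (by
      simpa [mul_assoc] using hin (e x * a) fun W hW => hg W (Or.inr hW))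
    rw [Subgroup.mem_pointwise_smul_iff_inv_smul_mem, MulAut.smul_def, ← map_inv, MulAut.conj_apply,
      inv_inv]
    rwa [map_mul, map_mul, map_inv, e.symm_apply_apply] at h
  rw [hbot, Subgroup.mem_bot] at h0
  exact hg1 (by simpa using congrArg e h0)

end Cfsg.Agent.KnownB.SylowMeet

namespace Cfsg.Agent.KnownB.SylowMeet

open scoped Pointwise
open Cfsg.Agent.Forms (qPlus)

universe v

/-- The statement for the full isometry group. -/
theorem meet_isometry {F : Type v} [Field F] [Fintype F] (hF : Fintype.card F = 2) {m : ℕ} (hm : 2 ≤ m)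
    (Qf : (Fin m ⊕ Fin m → F) → F) (hQf : ⇑(qPlus m F) = Qf)
    (H : Sylow 2 (Cfsg.isometryGroup F Qf)) (x : Cfsg.isometryGroup F Qf) :
    (H : Subgroup (Cfsg.isometryGroup F Qf)) ⊓ MulAut.conj x • (H : Subgroup _) ≠ ⊥ := by
  subst hQf
  exact meet_orth (by rw [Nat.card_eq_fintype_card, hF]) hm (Forms.isometryEquiv (qPlus m F)) H x

end Cfsg.Agent.KnownB.SylowMeet
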